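import Groth.Agent.PerfC.ExtZeroD

/-!
# Morphisms out of objects supported in an open
-/

set_option autoImplicit false

universe u

open CategoryTheory CategoryTheory.Limits AlgebraicGeometry

attribute [local instance] HasDerivedCategory.standard

namespace Groth.Agent.Dual.H350.SuppHom

open Groth.Agent.PerfA Groth.Agent.PerfA.Restrict Groth.Agent.PerfC.Supp Groth.Agent.PerfC.ExtZeroD
open Groth.Agent.PerfC

variable {X V : Scheme.{u}} (j : V ⟶ X) [IsOpenImmersion j]

/-- The cohomology sheaves of `K` are supported in the range of `j`. -/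
def SuppIn (K : DCoh.D X) : Prop := ∀ n : ℤ, supp K n ⊆ Set.range j

variable {j}

lemma SuppIn.of_iso {K L : DCoh.D X} (h : SuppIn j K) (e : K ≅ L) : SuppIn j L := fun n => by
  rw [← supp_congr e n]
  exact h n

lemma SuppIn.shift {K : DCoh.D X} (h : SuppIn j K) (n : ℤ) : SuppIn j (K⟦n⟧) := fun i => by
  rw [supp_shift K n i (n + i) rfl]
  exact h _

variable (j) in
lemma suppIn_shriekD (A : DCoh.D V) : SuppIn j ((shriekD j).obj A) :=
  supp_shriekD_subset_range j A

/-- Maps out of an object supported in `V` only see isomorphisms over `V`. -/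
lemma SuppIn.bijective_comp {M : DCoh.D X} (hM : SuppIn j M) {K L : DCoh.D X} (φ : K ⟶ L)
    (hφ : IsIso ((restrictD j).map φ)) : Function.Bijective (fun g : M ⟶ K => g ≫ φ) := by
  have h1 := bijective_restrictD_map (j := j) M K hM
  have h2 := bijective_restrictD_map (j := j) M L hM
  refine (Function.Bijective.of_comp_iff' h2 _).1 ?_
  have : (fun f : M ⟶ L => (restrictD j).map f) ∘ (fun g : M ⟶ K => g ≫ φ) =
      (fun g => g ≫ (restrictD j).map φ) ∘ (fun f : M ⟶ K => (restrictD j).map f) := by
    funext g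
    simp
  rw [this]
  refine Function.Bijective.comp ⟨fun a b hab => ?_, fun b => ⟨b ≫ inv ((restrictD j).map φ), by simp⟩⟩ h1
  exact (cancel_mono ((restrictD j).map φ)).1 hab

/-- Yoneda for objects supported in `V`: a morphism inducing bijections on maps out of objects supported in `V`
is an isomorphism over `V`. -/
lemma isIso_restrictD_of_bijective {K L : DCoh.D X} (φ : K ⟶ L)
    (h : ∀ A : DCoh.D V, Function.Bijective (fun g : (shriekD j).obj A ⟶ K => g ≫ φ)) :
    IsIso ((restrictD j).map φ) := by
  have key : ∀ A : DCoh.D V, Function.Bijective (fun g : A ⟶ (restrictD j).obj K => g ≫ (restrictD j).map φ) := by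
    intro A
    have e1 := (adjunction j).homEquiv A K
    have e2 := (adjunction j).homEquiv A L
    have : (fun g : A ⟶ (restrictD j).obj K => g ≫ (restrictD j).map φ) ∘
        ((adjunction j).homEquiv A K) = ((adjunction j).homEquiv A L) ∘
          (fun g : (shriekD j).obj A ⟶ K => g ≫ φ) := by
      funext g
      simp [Adjunction.homEquiv_naturality_right]
    refine (Function.Bijective.of_comp_iff _ ((adjunction j).homEquiv A K).bijective).1 ?_
    rw [this]
    exact ((adjunction j).homEquiv A L).bijective.comp (h A)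
  obtain ⟨r, hr⟩ := (key ((restrictD j).obj L)).2 (𝟙 _)
  refine ⟨r, ?_, hr⟩
  apply (key _).1
  dsimp at hr ⊢
  rw [Category.assoc, hr, Category.comp_id, Category.id_comp]

/-- A morphism between objects supported in `V` which is an isomorphism on `V` is an isomorphism. -/
lemma SuppIn.isIso {K L : DCoh.D X} (hK : SuppIn j K) (hL : SuppIn j L) (φ : K ⟶ L)
    (h : IsIso ((restrictD j).map φ)) : IsIso φ := isIso_of_supp φ hK hL h

/-- Lift of a map out of an object supported in `V` along a map which is an isomorphism over `V`. -/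
lemma SuppIn.exists_lift {M : DCoh.D X} (hM : SuppIn j M) {K L : DCoh.D X} (φ : K ⟶ L)
    (hφ : IsIso ((restrictD j).map φ)) (g : M ⟶ L) : ∃ g' : M ⟶ K, g' ≫ φ = g :=
  (hM.bijective_comp φ hφ).2 g

lemma SuppIn.hom_ext {M : DCoh.D X} (hM : SuppIn j M) {K L : DCoh.D X} (φ : K ⟶ L)
    (hφ : IsIso ((restrictD j).map φ)) {g g' : M ⟶ K} (h : g ≫ φ = g' ≫ φ) : g = g' :=
  (hM.bijective_comp φ hφ).1 h

lemma SuppIn.hom_ext_restrict {M : DCoh.D X} (hM : SuppIn j M) {K : DCoh.D X}
    {g g' : M ⟶ K} (h : (restrictD j).map g = (restrictD j).map g') : g = g' :=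
  (bijective_restrictD_map (j := j) M K hM).1 h

/-- Restriction of a smaller open. -/
lemma isIso_restrictD_of_le {V' : Scheme.{u}} (j' : V' ⟶ X) [IsOpenImmersion j'] (k : V' ⟶ V)
    (hk : k ≫ j = j') {K L : DCoh.D X} (φ : K ⟶ L)
    (h : IsIso ((restrictD j).map φ)) : IsIso ((restrictD j').map φ) := by
  have hk' : IsOpenImmersion k := by
    subst hk
    exact IsOpenImmersion.of_comp k j
  have e : restrictD j ⋙ restrictD k ≅ restrictD j' := by
    subst hk
    exact PcLocal.restrictDComp k j
  rw [← NatIso.isIso_map_iff e φ]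
  dsimp
  infer_instance

lemma SuppIn.mono {V' : Scheme.{u}} (j' : V' ⟶ X) [IsOpenImmersion j'] (h : Set.range j' ⊆ Set.range j)
    {K : DCoh.D X} (hK : SuppIn j' K) : SuppIn j K := fun n => (hK n).trans h

end Groth.Agent.Dual.H350.SuppHom
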