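import Groth.Agent.Dual.H350.UnivLoc
import Groth.Agent.Dual.H350.SuppHom
import Groth.Agent.PerfB.FlatPull

/-!
# The square of the diagonal over an open `V` of `X`, and localization of arrows `Δ_* M ⟶ Lpr₁^* K`
-/

set_option autoImplicit false

universe u

open CategoryTheory CategoryTheory.Limits AlgebraicGeometry

attribute [local instance] HasDerivedCategory.standard

namespace Groth.Agent.Dual.H350.GeoSq

open Groth.Agent.PerfA Groth.Agent.PerfA.Restrict Groth.Agent.PerfC.Supp Groth.Agent.PerfC.ExtZeroD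
open Groth.Agent.PerfC Groth.Agent.Dual.H350.SuppHom Groth.Agent.Dual.H350.UnivLoc Groth.Agent.Dual.H350.Uni

variable {X S V : Scheme.{u}} (f : X ⟶ S) (j : V ⟶ X)

/-- `V ×_S V ⟶ X ×_S X`. -/
noncomputable abbrev w : pullback (j ≫ f) (j ≫ f) ⟶ pullback f f :=
  pullback.map (j ≫ f) (j ≫ f) f f j j (𝟙 S) (by simp) (by simp)

lemma w_fst : w f j ≫ pullback.fst f f = pullback.fst (j ≫ f) (j ≫ f) ≫ j :=
  pullback.lift_fst _ _ _

lemma w_snd : w f j ≫ pullback.snd f f = pullback.snd (j ≫ f) (j ≫ f) ≫ j :=
  pullback.lift_snd _ _ _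

lemma diag_w : j ≫ pullback.diagonal f = pullback.diagonal (j ≫ f) ≫ w f j :=
  pullback.comp_diagonal j f

lemma isPullback_diag [Mono j] :
    IsPullback j (pullback.diagonal (j ≫ f)) (pullback.diagonal f) (w f j) := by
  refine ⟨⟨diag_w f j⟩, ⟨PullbackCone.IsLimit.mk _ (fun c => c.snd ≫ pullback.fst _ _) ?_ ?_ ?_⟩⟩
  · intro c
    have := c.condition =≫ pullback.fst f f
    simp only [Category.assoc, pullback.diagonal_fst, Category.comp_id, w_fst] at this
    rw [Category.assoc, ← this]
  · intro c
    have h1 := c.condition =≫ pullback.fst f f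
    have h2 := c.condition =≫ pullback.snd f f
    simp only [Category.assoc, pullback.diagonal_fst, pullback.diagonal_snd, Category.comp_id, w_fst,
      w_snd] at h1 h2
    have h3 : c.snd ≫ pullback.fst _ _ = c.snd ≫ pullback.snd _ _ := by
      rw [← cancel_mono j, Category.assoc, Category.assoc, ← h1, ← h2]
    apply pullback.hom_ext
    · simp
    · simp [h3]
  · intro c m hm hm'
    rw [← hm']
    simp

variable [IsOpenImmersion j]

section

variable [PreservesFiniteLimits (Scheme.Modules.pushforward (pullback.diagonal f))]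
  [PreservesFiniteColimits (Scheme.Modules.pushforward (pullback.diagonal f))]
  [PreservesFiniteLimits (Scheme.Modules.pushforward (pullback.diagonal (j ≫ f)))]
  [PreservesFiniteColimits (Scheme.Modules.pushforward (pullback.diagonal (j ≫ f)))]

/-- Restriction of `Δ_*` to `V ×_S V`. -/
noncomputable def alpha : Dual3.pushD (pullback.diagonal f) ⋙ restrictD (w f j) ≅
    restrictD j ⋙ Dual3.pushD (pullback.diagonal (j ≫ f)) :=
  pushSq (pullback.diagonal f) (isPullback_diag f j)

end

section

variable [Flat f] [DCoh.HasLpull (pullback.fst f f)]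
  [DCoh.HasLpull (pullback.fst (j ≫ f) (j ≫ f))]

/-- Restriction of `Lpr₁^*` to `V ×_S V`. -/
noncomputable def beta : DCoh.Lpull (pullback.fst f f) ⋙ restrictD (w f j) ≅
    restrictD j ⋙ DCoh.Lpull (pullback.fst (j ≫ f) (j ≫ f)) :=
  Functor.isoWhiskerRight (PerfB.FlatPull.lpullIso _) _ ≪≫
    PerfB.FlatPull.pullbackDSquare (w_fst f j) ≪≫
      Functor.isoWhiskerLeft _ (PerfB.FlatPull.lpullIso _).symm

end

end Groth.Agent.Dual.H350.GeoSq
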