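import Groth.Agent.Dual.H350.Trans
import Groth.Agent.Dual.H336.BBD
import Groth.Agent.Dual.H338.PushAdj
import Groth.Agent.S3630

/-!
# Gluing relative dualizing complexes
-/

set_option autoImplicit false
set_option linter.unusedSectionVars false

universe u

open CategoryTheory CategoryTheory.Limits AlgebraicGeometry

attribute [local instance] HasDerivedCategory.standard

namespace Groth.Agent.Dual.H350.Glue

open Groth.Agent.PerfA Groth.Agent.PerfA.Restrict Groth.Agent.PerfC.Supp Groth.Agent.PerfC.ExtZeroD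
open Groth.Agent.PerfC Groth.Agent.Dual.H350.SuppHom Groth.Agent.Dual.H350.UnivLoc Groth.Agent.Dual.H350.Uni
open Groth.Agent.Dual.H350.Loc Groth.Agent.Dual.H350.UniOn Groth.Agent.Dual.H350.GeoSq
open Groth.Agent.Dual.H350.LocDual Groth.Agent.Dual.H350.Trans

attribute [local instance] Dcoh.DerPull.hasLpull

section Supp

variable {X : Scheme.{u}}

lemma suppIn_iff' (V : X.Opens) (K : DCoh.D X) :
    SuppIn V.ι K ↔ Groth.Agent.Dual.H336.StalkIso.SuppIn V K := by
  rw [Groth.Agent.Dual.H336.StalkIso.suppIn_iff]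
  simp [SuppIn]

lemma isoOver_iff' (V : X.Opens) {K L : DCoh.D X} (φ : K ⟶ L) :
    IsIso ((restrictD V.ι).map φ) ↔ Groth.Agent.Dual.H336.StalkIso.IsoOver V φ :=
  (Groth.Agent.Dual.H336.StalkIso.isoOver_iff V φ).symm

lemma not_mem_supp_of_isoAt {x : X} {K L : DCoh.D X} {φ : K ⟶ L} {n : ℤ}
    (h : Groth.Agent.Dual.H336.StalkIso.IsoAt x φ) (hK : x ∉ supp K n) : x ∉ supp L n := by
  simp only [supp, CohqB.DevSupport.not_mem_support_iff_isZero] at hK ⊢
  exact IsZero.of_iso hK (@asIso _ _ _ _ _ (h n)).symm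

lemma not_mem_supp_of_isoAt' {x : X} {K L : DCoh.D X} {φ : K ⟶ L} {n : ℤ}
    (h : Groth.Agent.Dual.H336.StalkIso.IsoAt x φ) (hK : x ∉ supp L n) : x ∉ supp K n := by
  simp only [supp, CohqB.DevSupport.not_mem_support_iff_isZero] at hK ⊢
  exact IsZero.of_iso hK (@asIso _ _ _ _ _ (h n))

end Supp

section

variable {X S : Scheme.{u}} {f : X ⟶ S} [IsSeparated f]

/-- Restriction of a local datum to a smaller open. -/
lemma exists_restrict {V' V : X.Opens} (hV : V' ≤ V) (d : Dat f V) : Nonempty (Dat f V') := by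
  have hG := (sq f V').suppIn_push (suppIn_TV V' (OX X))
  have hi := (sq f V').isIso_restrict_Lpull _ (isIso_cV V' d.K)
  obtain ⟨ξ', hξ'⟩ := hG.exists_lift _ hi (resXi hV d.ξ)
  refine ⟨⟨TV V' d.K, suppIn_TV _ _, ξ', ?_, ?_⟩⟩
  · refine RelPerf.of_iso (RelPerf.restrict_le hV d.relPerf) ?_
    have := isIso_cV V' d.K
    exact (asIso ((restrictD V'.ι).map (cV V' d.K))).symm
  · rw [← IsUniOn.postcomp_iff (sq f V') _ (isIso_cV V' d.K), hξ']
    exact isUniOn_resXi hV d.uni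

/-- A relative dualizing complex over `V` gives a local datum. -/
lemma exists_dat {V : X.Opens} {K₀ : DCoh.D V} (h : Dual3.IsRelDualizing (V.ι ≫ f) K₀) :
    Nonempty (Dat f V) := by
  obtain ⟨ξ₀, h⟩ := h
  rw [pair_iff] at h
  obtain ⟨ξ, hξ⟩ := (bijective_loc' f V ((shriekD V.ι).obj K₀)).2
    (ξ₀ ≫ (DCoh.Lpull _).map (unitIso V.ι K₀).hom)
  refine ⟨⟨(shriekD V.ι).obj K₀, suppIn_shriekD _ _, ξ, ?_, ?_⟩⟩
  · exact RelPerf.of_iso h.1 (unitIso V.ι K₀)
  · rw [isUniOn_iff_loc', hξ]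
    exact h.2.of_iso_right ((DCoh.Lpull _).mapIso (unitIso V.ι K₀))

lemma neg_hom {V' V : X.Opens} (_hV : V' ≤ V) (hN : NProp (V'.ι ≫ f)) (d' : Dat f V')
    (d : Dat f V) (a : d'.K ⟶ d.K) (ha : IsIso ((restrictD V'.ι).map a)) (n : ℤ) (hn : n < 0)
    (g : d'.K ⟶ d.K⟦n⟧) : g = 0 := by
  have h1 := hN _ ⟨_, d'.pair⟩ n hn ((restrictD V'.ι).map g ≫
    ((restrictD V'.ι).commShiftIso n).hom.app d.K ≫ (inv ((restrictD V'.ι).map a))⟦n⟧')
  apply d'.supp.hom_ext_restrict
  rw [Functor.map_zero]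
  rw [← Category.assoc] at h1
  have h2 := (Preadditive.IsIso.comp_right_eq_zero _ _).1 h1
  exact (Preadditive.IsIso.comp_right_eq_zero _ _).1 h2

/-- **Gluing**: relative dualizing complexes exist if they exist locally. -/
theorem exists_glue (hHS : Groth.Agent.Dual.H336.BBD.HS X) (hU : ∀ V : X.Opens, UProp (V.ι ≫ f))
    (hN : ∀ V : X.Opens, NProp (V.ι ≫ f))
    (hloc : ∀ x : X, ∃ V : X.Opens, x ∈ V ∧ Nonempty (Dat f V)) :
    ∃ K : DCoh.D X, Dual3.IsRelDualizing f K := by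
  classical
  let B : Set X.Opens := {V | Nonempty (Dat f V)}
  have hdown : ∀ V ∈ B, ∀ V' ≤ V, V' ∈ B := fun V ⟨d⟩ V' hV => exists_restrict hV d
  have hB : sSup B = ⊤ := by
    rw [eq_top_iff]
    intro x _
    obtain ⟨V, hx, hV⟩ := hloc x
    exact TopologicalSpace.Opens.mem_sSup.2 ⟨V, hV, hx⟩
  let d : ∀ V : B, Dat f V.1 := fun V => V.2.some
  have htr : ∀ {V' V : B} (hV : V'.1 ≤ V.1), ∃ a : (d V').K ⟶ (d V).K,
      (IsIso ((restrictD V'.1.ι).map a) ∧
      (d V').ξ ≫ (DCoh.Lpull (pullback.fst f f)).map a = resXi hV (d V).ξ) ∧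
      ∀ b : (d V').K ⟶ (d V).K, IsIso ((restrictD V'.1.ι).map b) →
        (d V').ξ ≫ (DCoh.Lpull (pullback.fst f f)).map b = resXi hV (d V).ξ → b = a :=
    fun {V' V} hV => exists_trans hV (hU V'.1) (d V') (d V)
  choose a ha ha' using @htr
  have hcomp : ∀ {V'' V' V : B} (h : V''.1 ≤ V'.1) (h' : V'.1 ≤ V.1),
      a h ≫ a h' = a (h.trans h') := by
    intro V'' V' V h h'
    refine ha' (h.trans h') _ ?_ ?_
    · have h1 := (ha h).1
      have h2 := isIso_res_of_le h _ (ha h').1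
      rw [Functor.map_comp]
      infer_instance
    · rw [Functor.map_comp, ← Category.assoc, (ha h).2, ← resXi_comp, (ha h').2, resXi_resXi]
  let D : Groth.Agent.Dual.H336.BBD.Datum X :=
    { B := B
      down := hdown
      K := fun V => (d V).K
      supp := fun V => (suppIn_iff' _ _).1 (d V).supp
      φ := fun h => a h
      φ_comp := fun h h' => hcomp h h'
      φ_iso := fun h => (isoOver_iff' _ _).1 (ha h).1
      neg := fun {V' V} h n hn g => neg_hom h (hN V'.1) (d V') (d V) (a h) (ha h).1 n hn g }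
  obtain ⟨L, ψ, -, hψ, hψ'⟩ := D.exists_glue hHS
  have hψi : ∀ V : B, IsIso ((restrictD V.1.ι).map (ψ V)) := fun V => (isoOver_iff' _ _).2 (hψ V)
  have hrel : ∀ V : B, RelPerf (V.1.ι ≫ f) ((restrictD V.1.ι).obj L) := fun V =>
    RelPerf.of_iso (d V).relPerf (@asIso _ _ _ _ _ (hψi V))
  -- the rigidifying maps
  let η : ∀ V : B, (Dual3.pushD (pullback.diagonal f)).obj (TV V.1 (OX X)) ⟶
      (DCoh.Lpull (pullback.fst f f)).obj L :=
    fun V => (d V).ξ ≫ (DCoh.Lpull (pullback.fst f f)).map (ψ V)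
  have hη : ∀ V : B, IsUniOn V.1.ι (Dual3.pushD (pullback.diagonal f)) (η V) := fun V =>
    (IsUniOn.postcomp_iff (sq f V.1) _ (hψi V)).2 (d V).uni
  have hη' : ∀ {V' V : B} (h : V'.1 ≤ V.1), resXi h (η V) = η V' := by
    intro V' V h
    change resXi h ((d V).ξ ≫ (DCoh.Lpull (pullback.fst f f)).map (ψ V)) = _
    rw [resXi_comp, ← (ha h).2, Category.assoc, ← Functor.map_comp]
    congr 2
    exact hψ' h
  have : Dual3.HasHomO (pullback.diagonal f) := S3630.result _ _ _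
  let adj := Groth.Agent.Dual.H338.PushAdj.pushAdj (pullback.diagonal f)
  let N := (Groth.Agent.Dual.H338.PushAdj.RHomO (pullback.diagonal f)).obj
    ((DCoh.Lpull (pullback.fst f f)).obj L)
  let g : ∀ V : B, TV V.1 (OX X) ⟶ N := fun V => adj.homEquiv _ _ (η V)
  have hg : ∀ V : B, Groth.Agent.Dual.H336.StalkIso.IsoOver V.1 (g V) := fun V =>
    (isoOver_iff' _ _).1 ((isUniOn_iff_homEquiv adj).1 (hη V))
  have hc : ∀ V : B, Groth.Agent.Dual.H336.StalkIso.IsoOver V.1 (cV V.1 (OX X)) := fun V =>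
    (isoOver_iff' _ _).1 (isIso_cV _ _)
  have hgc : ∀ {V' V : B} (h : V'.1 ≤ V.1), kap h (OX X) ≫ g V = g V' := by
    intro V' V h
    change kap h (OX X) ≫ adj.homEquiv _ _ (η V) = adj.homEquiv _ _ (η V')
    rw [← Adjunction.homEquiv_naturality_left]
    congr 1
    exact hη' h
  -- bounds
  have hOLE : (OX X).IsLE 0 := by
    change (DCoh.inD X (Coh.structureModule X)).IsLE 0
    infer_instance
  have hOGE : (OX X).IsGE 0 := by
    change (DCoh.inD X (Coh.structureModule X)).IsGE 0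
    infer_instance
  have hNGE : N.IsGE 0 := by
    rw [DerivedCategory.isGE_iff]
    intro i hi
    rw [← supp_eq_empty_iff, Set.eq_empty_iff_forall_notMem]
    intro x
    obtain ⟨V, hx, hV⟩ := hloc x
    refine not_mem_supp_of_isoAt (hg ⟨V, hV⟩ x hx)
      (not_mem_supp_of_isoAt' (hc ⟨V, hV⟩ x hx) ?_)
    have := (DerivedCategory.isGE_iff _ _).1 hOGE i hi
    rw [← supp_eq_empty_iff] at this
    rw [this]
    exact Set.notMem_empty x
  have hTLE : ∀ V : X.Opens, (TV V (OX X)).IsLE 0 := by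
    intro V
    rw [DerivedCategory.isLE_iff]
    intro i hi
    rw [← supp_eq_empty_iff, supp_shriekD, supp_restrictD]
    have := (DerivedCategory.isLE_iff _ _).1 hOLE i hi
    rw [← supp_eq_empty_iff] at this
    rw [this]
    simp
  have hneg : ∀ V : B, ∀ n : ℤ, n < 0 → ∀ g : TV V.1 (OX X) ⟶ N⟦n⟧, g = 0 := by
    intro V n hn g
    have h1 := hTLE V.1
    have h2 : (N⟦n⟧).IsGE (-n) := DerivedCategory.TStructure.t.isGE_shift N 0 n (-n) (by lia)
    exact DerivedCategory.TStructure.t.zero_of_isLE_of_isGE g 0 (-n) (by lia) h1 h2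
  obtain ⟨h, hh, -⟩ := hHS (OX X) N B hdown
    (by
      rw [hB]
      intro x hx
      exact absurd trivial hx)
    (fun V => TV V.1 (OX X)) (fun V => cV V.1 (OX X))
    (fun V => (suppIn_iff' _ _).1 (suppIn_TV _ _)) hc hneg g
    (fun V' V hV u hu => by
      rw [kap_eq hV _ u hu]
      exact hgc hV)
  have hiso : IsIso h := by
    rw [Groth.Agent.Dual.H336.StalkIso.isIso_iff]
    intro x
    obtain ⟨V, hx, hV⟩ := hloc x
    have h1 := hh ⟨V, hV⟩
    have h2 := hg ⟨V, hV⟩ x hx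
    rw [← h1] at h2
    exact Groth.Agent.Dual.H336.StalkIso.IsoAt.of_comp_left (hc ⟨V, hV⟩ x hx) h2
  refine ⟨L, (adj.homEquiv _ _).symm h, ?_⟩
  rw [pair_iff]
  refine ⟨RelPerf.of_cover fun x => ?_, ?_⟩
  · obtain ⟨V, hx, hV⟩ := hloc x
    exact ⟨V, hx, hrel ⟨V, hV⟩⟩
  · rw [isUni_iff_isIso_homEquiv adj, Equiv.apply_symm_apply]
    exact hiso

end

end Groth.Agent.Dual.H350.Glue
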