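import Groth.Agent.Dual.H350.UnivLoc
import Groth.Agent.Dual.H350.SuppHom
import Groth.Agent.Dcoh.DerPull2

/-!
# Localization of arrows `Δ_* N ⟶ Lp^* K`

For a closed immersion `Δ : X ⟶ W`, a morphism `p : W ⟶ X` and compatible open immersions `j : X' ⟶ X`, `w : W' ⟶ W`.
-/

set_option autoImplicit false
set_option linter.unusedSectionVars false

universe u

open CategoryTheory CategoryTheory.Limits AlgebraicGeometry

attribute [local instance] HasDerivedCategory.standard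

namespace Groth.Agent.Dual.H350.Loc

open Groth.Agent.PerfA Groth.Agent.PerfA.Restrict Groth.Agent.PerfC.Supp Groth.Agent.PerfC.ExtZeroD
open Groth.Agent.PerfC Groth.Agent.Dual.H350.SuppHom Groth.Agent.Dual.H350.UnivLoc Groth.Agent.Dual.H350.Uni

variable {X W X' W' : Scheme.{u}}

/-- A square of a diagonal-like pair. -/
structure Sq (Δ : X ⟶ W) (p : W ⟶ X) (Δ' : X' ⟶ W') (p' : W' ⟶ X') (j : X' ⟶ X) (w : W' ⟶ W) : Prop where
  hp : IsPullback j Δ' Δ w
  hw : w ≫ p = p' ≫ j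

variable {Δ : X ⟶ W} {p : W ⟶ X} {Δ' : X' ⟶ W'} {p' : W' ⟶ X'} {j : X' ⟶ X} {w : W' ⟶ W}
  [IsOpenImmersion j] [IsOpenImmersion w] [DCoh.HasLpull p] [DCoh.HasLpull p']
  [PreservesFiniteLimits (Scheme.Modules.pushforward Δ)]
  [PreservesFiniteColimits (Scheme.Modules.pushforward Δ)]
  [PreservesFiniteLimits (Scheme.Modules.pushforward Δ')]
  [PreservesFiniteColimits (Scheme.Modules.pushforward Δ')]
  (h : Sq Δ p Δ' p' j w)

/-- Base change for `Δ_*`. -/
noncomputable def Sq.alpha : Dual3.pushD Δ ⋙ restrictD w ≅ restrictD j ⋙ Dual3.pushD Δ' :=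
  pushSq Δ h.hp

/-- Base change for `Lp^*`. -/
noncomputable def Sq.beta : DCoh.Lpull p ⋙ restrictD w ≅ restrictD j ⋙ DCoh.Lpull p' :=
  Dcoh.DerPull.lpullRestrictIso h.hw

/-- Localization of `ξ : Δ_* N ⟶ Lp^* K`. -/
noncomputable def Sq.loc {N K : DCoh.D X} (ξ : (Dual3.pushD Δ).obj N ⟶ (DCoh.Lpull p).obj K) :
    (Dual3.pushD Δ').obj ((restrictD j).obj N) ⟶ (DCoh.Lpull p').obj ((restrictD j).obj K) :=
  h.alpha.inv.app N ≫ (restrictD w).map ξ ≫ h.beta.hom.app K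

lemma Sq.loc_map_comp {M N K : DCoh.D X} (φ : M ⟶ N)
    (ξ : (Dual3.pushD Δ).obj N ⟶ (DCoh.Lpull p).obj K) :
    h.loc ((Dual3.pushD Δ).map φ ≫ ξ) = (Dual3.pushD Δ').map ((restrictD j).map φ) ≫ h.loc ξ := by
  have := h.alpha.inv.naturality φ
  dsimp at this
  simp [Sq.loc, reassoc_of% this]

lemma Sq.loc_comp_map {N K L : DCoh.D X} (ξ : (Dual3.pushD Δ).obj N ⟶ (DCoh.Lpull p).obj K)
    (φ : K ⟶ L) :
    h.loc (ξ ≫ (DCoh.Lpull p).map φ) = h.loc ξ ≫ (DCoh.Lpull p').map ((restrictD j).map φ) := by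
  have := h.beta.hom.naturality φ
  dsimp at this
  simp [Sq.loc, this]

include h in
lemma Sq.suppIn_push [IsClosedImmersion Δ] {N : DCoh.D X} (hN : SuppIn j N) :
    SuppIn w ((Dual3.pushD Δ).obj N) := fun n => by
  rw [supp_pushD]
  rintro _ ⟨x, hx, rfl⟩
  obtain ⟨y, rfl⟩ := hN n hx
  refine ⟨Δ' y, ?_⟩
  have := congrArg (fun g : X' ⟶ W => g y) h.hp.w
  simpa using this.symm

lemma Sq.bijective_loc [IsClosedImmersion Δ] {N : DCoh.D X} (hN : SuppIn j N) (K : DCoh.D X) :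
    Function.Bijective (h.loc (N := N) (K := K)) := by
  have h1 := bijective_restrictD_map (j := w) ((Dual3.pushD Δ).obj N) ((DCoh.Lpull p).obj K)
    (h.suppIn_push hN)
  refine ⟨fun a b hab => h1.1 ?_, fun b => ?_⟩
  · dsimp only [Sq.loc] at hab
    rw [cancel_epi, cancel_mono] at hab
    exact hab
  · obtain ⟨a, ha⟩ := h1.2 (h.alpha.hom.app N ≫ b ≫ h.beta.inv.app K)
    refine ⟨a, ?_⟩
    dsimp only [Sq.loc]
    dsimp only at ha
    rw [ha]
    simp

include h in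
/-- The localized morphism of `p^* φ` is an isomorphism if `φ` is an isomorphism over `X'`. -/
lemma Sq.isIso_restrict_Lpull {K L : DCoh.D X} (φ : K ⟶ L) (hφ : IsIso ((restrictD j).map φ)) :
    IsIso ((restrictD w).map ((DCoh.Lpull p).map φ)) := by
  have := (NatIso.isIso_map_iff h.beta φ).2 (by dsimp; infer_instance)
  exact this

end Groth.Agent.Dual.H350.Loc
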