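import Groth.Agent.Dual.H350.UniOn
import Groth.Agent.Dual.H350.GeoSq
import Groth.Agent.Dual.H351.PairRestrict
import Groth.Agent.Dcoh.DerPull
import Groth.Agent.PerfC.ClosedPush

/-!
# Local relative dualizing complexes, extended by zero
-/

set_option autoImplicit false
set_option linter.unusedSectionVars false

universe u

open CategoryTheory CategoryTheory.Limits AlgebraicGeometry

attribute [local instance] HasDerivedCategory.standard

namespace Groth.Agent.Dual.H350.LocDual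

open Groth.Agent.PerfA Groth.Agent.PerfA.Restrict Groth.Agent.PerfC.Supp Groth.Agent.PerfC.ExtZeroD
open Groth.Agent.PerfC Groth.Agent.Dual.H350.SuppHom Groth.Agent.Dual.H350.UnivLoc Groth.Agent.Dual.H350.Uni
open Groth.Agent.Dual.H350.Loc Groth.Agent.Dual.H350.UniOn Groth.Agent.Dual.H350.GeoSq
open Groth.Agent.Dual.H351.PairRestrict (unitRes)

section TV

variable {X : Scheme.{u}}

/-- The part of `K` supported in `V`: `j_! j^* K`. -/
noncomputable abbrev TV (V : X.Opens) (K : DCoh.D X) : DCoh.D X :=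
  (shriekD V.ι).obj ((restrictD V.ι).obj K)

/-- `j_! j^* K ⟶ K`. -/
noncomputable abbrev cV (V : X.Opens) (K : DCoh.D X) : TV V K ⟶ K := (adjunction V.ι).counit.app K

lemma suppIn_TV (V : X.Opens) (K : DCoh.D X) : SuppIn V.ι (TV V K) := suppIn_shriekD _ _

lemma isIso_cV (V : X.Opens) (K : DCoh.D X) : IsIso ((restrictD V.ι).map (cV V K)) :=
  isIso_restrictD_counit _ _

lemma isIso_res_of_le {V' V : X.Opens} (hV : V' ≤ V) {K L : DCoh.D X} (φ : K ⟶ L)
    (h : IsIso ((restrictD V.ι).map φ)) : IsIso ((restrictD V'.ι).map φ) :=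
  isIso_restrictD_of_le V'.ι (X.homOfLE hV) (by simp) φ h

lemma suppIn_of_le {V' V : X.Opens} (hV : V' ≤ V) {K : DCoh.D X} (h : SuppIn V'.ι K) :
    SuppIn V.ι K :=
  h.mono V'.ι (by simpa using hV)

/-- The transition map `j'_! j'^* K ⟶ j_! j^* K`. -/
noncomputable def kap {V' V : X.Opens} (hV : V' ≤ V) (K : DCoh.D X) : TV V' K ⟶ TV V K :=
  ((suppIn_TV V' K).exists_lift (cV V K) (isIso_res_of_le hV _ (isIso_cV V K)) (cV V' K)).choose

@[reassoc (attr := simp)]
lemma kap_cV {V' V : X.Opens} (hV : V' ≤ V) (K : DCoh.D X) : kap hV K ≫ cV V K = cV V' K :=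
  ((suppIn_TV V' K).exists_lift (cV V K) (isIso_res_of_le hV _ (isIso_cV V K)) (cV V' K)).choose_spec

lemma kap_eq {V' V : X.Opens} (hV : V' ≤ V) (K : DCoh.D X) (φ : TV V' K ⟶ TV V K)
    (h : φ ≫ cV V K = cV V' K) : φ = kap hV K :=
  (suppIn_TV V' K).hom_ext (cV V K) (isIso_res_of_le hV _ (isIso_cV V K)) (by rw [h, kap_cV])

lemma kap_id (V : X.Opens) (K : DCoh.D X) : kap (le_refl V) K = 𝟙 _ :=
  (kap_eq (le_refl V) K _ (by simp)).symm

@[reassoc (attr := simp)]
lemma kap_comp {V'' V' V : X.Opens} (hV' : V'' ≤ V') (hV : V' ≤ V) (K : DCoh.D X) :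
    kap hV' K ≫ kap hV K = kap (hV'.trans hV) K :=
  kap_eq (hV'.trans hV) K _ (by simp)

lemma isIso_kap {V' V : X.Opens} (hV : V' ≤ V) (K : DCoh.D X) :
    IsIso ((restrictD V'.ι).map (kap hV K)) := by
  have h1 := isIso_res_of_le hV _ (isIso_cV V K)
  have h2 := isIso_cV V' K
  rw [← kap_cV hV K, Functor.map_comp] at h2
  exact IsIso.of_isIso_comp_right _ ((restrictD V'.ι).map (cV V K))

end TV

section Pair

variable {X S : Scheme.{u}} (f : X ⟶ S)

attribute [local instance] Dcoh.DerPull.hasLpull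

variable [IsSeparated f]

/-- The square of diagonals over `V`. -/
lemma sq (V : X.Opens) : Sq (pullback.diagonal f) (pullback.fst f f) (pullback.diagonal (V.ι ≫ f))
    (pullback.fst (V.ι ≫ f) (V.ι ≫ f)) V.ι (w f V.ι) :=
  ⟨isPullback_diag f V.ι, w_fst f V.ι⟩

/-- `O_X` in `D(O_X)`. -/
noncomputable abbrev OX (X : Scheme.{u}) : DCoh.D X := DCoh.inD X (Coh.structureModule X)

/-- `O_V ≅ (j_! O_V)|_V`. -/
noncomputable def eV (V : X.Opens) : OX V ≅ (restrictD V.ι).obj (TV V (OX X)) :=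
  (unitRes V.ι).symm ≪≫ (@asIso _ _ _ _ _ (isIso_cV V (OX X))).symm

/-- The rigidifying map over `V` attached to an arrow `Δ_* j_! O_V ⟶ Lpr₁^* K`. -/
noncomputable def loc' (V : X.Opens) {K : DCoh.D X}
    (ξ : (Dual3.pushD (pullback.diagonal f)).obj (TV V (OX X)) ⟶
      (DCoh.Lpull (pullback.fst f f)).obj K) :
    (Dual3.pushD (pullback.diagonal (V.ι ≫ f))).obj (OX V) ⟶
      (DCoh.Lpull (pullback.fst (V.ι ≫ f) (V.ι ≫ f))).obj ((restrictD V.ι).obj K) :=
  (Dual3.pushD (pullback.diagonal (V.ι ≫ f))).map (eV V).hom ≫ (sq f V).loc ξ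

lemma loc'_comp (V : X.Opens) {K L : DCoh.D X}
    (ξ : (Dual3.pushD (pullback.diagonal f)).obj (TV V (OX X)) ⟶
      (DCoh.Lpull (pullback.fst f f)).obj K) (φ : K ⟶ L) :
    loc' f V (ξ ≫ (DCoh.Lpull (pullback.fst f f)).map φ) = loc' f V ξ ≫
      (DCoh.Lpull (pullback.fst (V.ι ≫ f) (V.ι ≫ f))).map ((restrictD V.ι).map φ) := by
  rw [loc', loc', (sq f V).loc_comp_map, Category.assoc]

lemma bijective_loc' (V : X.Opens) (K : DCoh.D X) : Function.Bijective (loc' f V (K := K)) := by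
  refine Function.Bijective.comp (g := fun g => (Dual3.pushD (pullback.diagonal (V.ι ≫ f))).map
    (eV V).hom ≫ g) ⟨fun a b hab => ?_, fun b => ⟨(Dual3.pushD (pullback.diagonal (V.ι ≫ f))).map
    (eV V).inv ≫ b, ?_⟩⟩ ((sq f V).bijective_loc (suppIn_TV V (OX X)) K)
  · exact (cancel_epi _).1 hab
  · dsimp only
    rw [← Functor.map_comp_assoc, Iso.hom_inv_id, CategoryTheory.Functor.map_id, Category.id_comp]

lemma isUniOn_iff_loc' (V : X.Opens) {K : DCoh.D X}
    (ξ : (Dual3.pushD (pullback.diagonal f)).obj (TV V (OX X)) ⟶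
      (DCoh.Lpull (pullback.fst f f)).obj K) :
    IsUniOn V.ι (Dual3.pushD (pullback.diagonal f)) ξ ↔
      IsUni (Dual3.pushD (pullback.diagonal (V.ι ≫ f))) (loc' f V ξ) := by
  rw [isUniOn_iff (sq f V)]
  exact isUni_iff_of_iso_left (eV V)

/-- `K` is pseudo-coherent and locally of finite relative tor dimension. -/
def RelPerf (K : DCoh.D X) : Prop :=
  (∀ m : ℤ, DCoh.IsPseudoCoherentD m K) ∧ DCoh.LocHasFiniteRelTorDim f K

omit [IsSeparated f] in
lemma pair_iff {f : X ⟶ S} [DCoh.HasLpull (pullback.fst f f)]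
    [PreservesFiniteLimits (Scheme.Modules.pushforward (pullback.diagonal f))]
    [PreservesFiniteColimits (Scheme.Modules.pushforward (pullback.diagonal f))] {K : DCoh.D X}
    (ξ : (Dual3.pushD (pullback.diagonal f)).obj (DCoh.inD X (Coh.structureModule X)) ⟶
      (DCoh.Lpull (pullback.fst f f)).obj K) :
    Dual3.IsRelDualizingPair f K ξ ↔ RelPerf f K ∧ IsUni (Dual3.pushD (pullback.diagonal f)) ξ := by
  constructor
  · rintro ⟨h1, h2, h3⟩
    exact ⟨⟨h1, h2⟩, IsUni.of_shift 0 fun M => h3 M 0⟩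
  · rintro ⟨⟨h1, h2⟩, h3⟩
    exact ⟨h1, h2, fun M j => h3.shift j M⟩

/-- A relative dualizing pair over the open `V`, extended by zero to `X`. -/
structure Dat (V : X.Opens) where
  K : DCoh.D X
  supp : SuppIn V.ι K
  ξ : (Dual3.pushD (pullback.diagonal f)).obj (TV V (OX X)) ⟶ (DCoh.Lpull (pullback.fst f f)).obj K
  relPerf : RelPerf (V.ι ≫ f) ((restrictD V.ι).obj K)
  uni : IsUniOn V.ι (Dual3.pushD (pullback.diagonal f)) ξ

variable {f}

lemma Dat.pair {V : X.Opens} (d : Dat f V) :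
    Dual3.IsRelDualizingPair (V.ι ≫ f) ((restrictD V.ι).obj d.K) (loc' f V d.ξ) := by
  rw [pair_iff]
  exact ⟨d.relPerf, (isUniOn_iff_loc' f V d.ξ).1 d.uni⟩

end Pair

end Groth.Agent.Dual.H350.LocDual
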