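import Groth.Agent.Dual.H350.Glue
import Groth.Agent.Dual.H352.Chart
import Groth.Agent.Dual.H352.RelOpc

/-!
# Transport of relative dualizing complexes along isomorphisms of the source and monomorphisms of the base
-/

set_option autoImplicit false
set_option linter.unusedSectionVars false

universe u

open CategoryTheory CategoryTheory.Limits AlgebraicGeometry

attribute [local instance] HasDerivedCategory.standard

namespace Groth.Agent.Dual.H350.LocalEx

open Groth.Agent.PerfA Groth.Agent.PerfA.Restrict Groth.Agent.PerfC.Supp Groth.Agent.PerfC.ExtZeroD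
open Groth.Agent.PerfC Groth.Agent.Dual.H350.SuppHom Groth.Agent.Dual.H350.UnivLoc Groth.Agent.Dual.H350.Uni
open Groth.Agent.Dual.H350.Loc Groth.Agent.Dual.H350.UniOn Groth.Agent.Dual.H350.GeoSq
open Groth.Agent.Dual.H350.LocDual Groth.Agent.Dual.H350.Trans Groth.Agent.Dual.H350.Glue
open Groth.Agent.Dual.H351.PairRestrict (unitRes)

attribute [local instance] Dcoh.DerPull.hasLpull

section

variable {U V T S : Scheme.{u}} (g : U ⟶ T) (i : T ⟶ S) [Mono i] (e : V ⟶ U) [IsIso e]
  {g' : V ⟶ S} (hg : e ≫ g ≫ i = g')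

/-- `V ×_S V ⟶ U ×_T U`. -/
noncomputable def u : pullback g' g' ⟶ pullback g g :=
  pullback.lift (pullback.fst _ _ ≫ e) (pullback.snd _ _ ≫ e) (by
    rw [← cancel_mono i, Category.assoc, Category.assoc, Category.assoc, Category.assoc, hg]
    exact pullback.condition)

/-- The inverse of `u`. -/
noncomputable def v : pullback g g ⟶ pullback g' g' :=
  pullback.lift (pullback.fst _ _ ≫ inv e) (pullback.snd _ _ ≫ inv e) (by
    rw [← hg, Category.assoc, Category.assoc, IsIso.inv_hom_id_assoc,
      ← Category.assoc, pullback.condition, Category.assoc])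

@[reassoc (attr := simp)]
lemma u_fst : u g i e hg ≫ pullback.fst g g = pullback.fst g' g' ≫ e := pullback.lift_fst _ _ _

@[reassoc (attr := simp)]
lemma u_snd : u g i e hg ≫ pullback.snd g g = pullback.snd g' g' ≫ e := pullback.lift_snd _ _ _

@[reassoc (attr := simp)]
lemma v_fst : v g i e hg ≫ pullback.fst g' g' = pullback.fst g g ≫ inv e := pullback.lift_fst _ _ _

@[reassoc (attr := simp)]
lemma v_snd : v g i e hg ≫ pullback.snd g' g' = pullback.snd g g ≫ inv e := pullback.lift_snd _ _ _

instance isIso_u : IsIso (u g i e hg) := by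
  refine ⟨v g i e hg, ?_, ?_⟩
  · apply pullback.hom_ext <;> simp
  · apply pullback.hom_ext <;> simp

lemma sqIso : Sq (pullback.diagonal g) (pullback.fst g g) (pullback.diagonal g')
    (pullback.fst g' g') e (u g i e hg) := by
  refine ⟨IsPullback.of_horiz_isIso ⟨?_⟩, u_fst g i e hg⟩
  apply pullback.hom_ext <;> simp

end

/-- Relative dualizing complexes for `g : U ⟶ T` and for `V ≅ U ⟶ T ⟶ S`, with `T ⟶ S` an open immersion. -/
theorem isRelDualizing_transport {U V T S : Scheme.{u}} (g : U ⟶ T) [IsSeparated g] (i : T ⟶ S)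
    [IsOpenImmersion i] (e : V ⟶ U) [IsIso e] {g' : V ⟶ S} [IsSeparated g'] (hg : e ≫ g ≫ i = g')
    {K : DCoh.D U} (hK : Dual3.IsRelDualizing g K) :
    Dual3.IsRelDualizing g' ((restrictD e).obj K) := by
  obtain ⟨ξ, h⟩ := hK
  rw [pair_iff] at h
  refine ⟨(Dual3.pushD (pullback.diagonal g')).map (unitRes e).inv ≫ (sqIso g i e hg).loc ξ, ?_⟩
  rw [pair_iff]
  refine ⟨RelPerf.restrict hg ⟨h.1.1, ?_⟩, ?_⟩
  · exact (Groth.Agent.Dual.H352.RelOpc.locHasFiniteRelTorDim_comp_iff g i).2 h.1.2
  · exact ((isUniOn_iff (sqIso g i e hg) ξ).1 (IsUniOn.of_isUni h.2)).of_iso_left (unitRes e).symm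

/-- Local existence from affine existence. -/
theorem exists_dat_of_affine {X S : Scheme.{u}} (f : X ⟶ S) [Flat f] [LocallyOfFinitePresentation f]
    [IsSeparated f]
    (haff : ∀ (R A : Type u) [CommRing R] [CommRing A] [Algebra R A] [Module.Flat R A]
      [Algebra.FinitePresentation R A],
      ∃ K, Dual3.IsRelDualizing (Spec.map (CommRingCat.ofHom (algebraMap R A))) K) (x : X) :
    ∃ V : X.Opens, x ∈ V ∧ Nonempty (Dat f V) := by
  obtain ⟨R, A, hR, hA, hRA, j, hj, i, hi, hfl, hfp, hx, -, hji⟩ :=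
    Groth.Agent.Dual.H352.Chart.exists_chart f x ⊤ trivial
  obtain ⟨K, hK⟩ := haff R A
  refine ⟨j.opensRange, hx, ?_⟩
  refine exists_dat (isRelDualizing_transport (Spec.map (CommRingCat.ofHom (algebraMap R A))) i
    j.isoOpensRange.inv ?_ hK)
  rw [← hji, Scheme.Hom.isoOpensRange_inv_comp_assoc]

end Groth.Agent.Dual.H350.LocalEx
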