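import Groth.Agent.Dual.H350.LocDual

/-!
# Transition maps between local relative dualizing complexes
-/

set_option autoImplicit false
set_option linter.unusedSectionVars false

universe u

open CategoryTheory CategoryTheory.Limits AlgebraicGeometry

attribute [local instance] HasDerivedCategory.standard

namespace Groth.Agent.Dual.H350.Trans

open Groth.Agent.PerfA Groth.Agent.PerfA.Restrict Groth.Agent.PerfC.Supp Groth.Agent.PerfC.ExtZeroD
open Groth.Agent.PerfC Groth.Agent.Dual.H350.SuppHom Groth.Agent.Dual.H350.UnivLoc Groth.Agent.Dual.H350.Uni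
open Groth.Agent.Dual.H350.Loc Groth.Agent.Dual.H350.UniOn Groth.Agent.Dual.H350.GeoSq
open Groth.Agent.Dual.H350.LocDual

/-- Uniqueness of relative dualizing pairs (the content of milestone S3647 for `f`). -/
def UProp {X S : Scheme.{u}} (f : X ⟶ S) : Prop :=
  ∀ [DCoh.HasLpull (pullback.fst f f)]
    [PreservesFiniteLimits (Scheme.Modules.pushforward (pullback.diagonal f))]
    [PreservesFiniteColimits (Scheme.Modules.pushforward (pullback.diagonal f))] (K L : DCoh.D X)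
    (ξ : (Dual3.pushD (pullback.diagonal f)).obj (DCoh.inD X (Coh.structureModule X)) ⟶
      (DCoh.Lpull (pullback.fst f f)).obj K)
    (η : (Dual3.pushD (pullback.diagonal f)).obj (DCoh.inD X (Coh.structureModule X)) ⟶
      (DCoh.Lpull (pullback.fst f f)).obj L),
    Dual3.IsRelDualizingPair f K ξ → Dual3.IsRelDualizingPair f L η →
      ∃! α : K ≅ L, ξ ≫ (DCoh.Lpull (pullback.fst f f)).map α.hom = η

/-- Vanishing of negative self-extensions of relative dualizing complexes. -/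
def NProp {X S : Scheme.{u}} (f : X ⟶ S) : Prop :=
  ∀ [DCoh.HasLpull (pullback.fst f f)]
    [PreservesFiniteLimits (Scheme.Modules.pushforward (pullback.diagonal f))]
    [PreservesFiniteColimits (Scheme.Modules.pushforward (pullback.diagonal f))] (K : DCoh.D X),
    Dual3.IsRelDualizing f K → ∀ n : ℤ, n < 0 → ∀ g : K ⟶ K⟦n⟧, g = 0

section RelPerf

variable {X S : Scheme.{u}} {f : X ⟶ S}

lemma RelPerf.of_iso {K L : DCoh.D X} (h : RelPerf f K) (e : K ≅ L) : RelPerf f L := by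
  refine ⟨fun m => PcLocal.pc_of_iso e (h.1 m), ?_⟩
  have h2 := h.2
  rw [RelAmp.locHasFiniteRelTorDim_iff] at h2 ⊢
  intro x
  obtain ⟨V, a, b, hx, h1⟩ := h2 x
  exact ⟨V, a, b, hx, Groth.Agent.Dual.H351.PairRestrict.hasRelFlatAmplitudeIn_of_iso
    ((restrictD V.ι).mapIso e) h1⟩

lemma RelPerf.restrict {U : Scheme.{u}} {j : U ⟶ X} [IsOpenImmersion j] {f' : U ⟶ S}
    (e : j ≫ f = f') {K : DCoh.D X} (h : RelPerf f K) : RelPerf f' ((restrictD j).obj K) :=
  ⟨fun m => PcLocal.pc_restrict j (h.1 m),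
    Groth.Agent.Dual.H351.PairRestrict.locHasFiniteRelTorDim_restrict (l := 𝟙 S) (f' := f')
      (by simpa using e) h.2⟩

lemma RelPerf.restrict_le {V' V : X.Opens} (hV : V' ≤ V) {K : DCoh.D X}
    (h : RelPerf (V.ι ≫ f) ((restrictD V.ι).obj K)) :
    RelPerf (V'.ι ≫ f) ((restrictD V'.ι).obj K) := by
  have h1 := RelPerf.restrict (j := X.homOfLE hV) (f' := V'.ι ≫ f) (by simp) h
  exact RelPerf.of_iso h1 ((Dcoh.LocalD.restrictCompEq (f := X.homOfLE hV) (g := V.ι) (h := V'.ι)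
    (by simp)).app K)

lemma RelPerf.of_cover {K : DCoh.D X}
    (h : ∀ x : X, ∃ V : X.Opens, x ∈ V ∧ RelPerf (V.ι ≫ f) ((restrictD V.ι).obj K)) :
    RelPerf f K := by
  constructor
  · intro m
    refine PcLocal.pc_of_cover K fun x => ?_
    obtain ⟨V, hx, hV⟩ := h x
    exact ⟨V, V.ι, inferInstance, ⟨x, hx⟩, rfl, hV.1 m⟩
  · refine Groth.Agent.PerfC.RelPerf.locHasFiniteRelTorDim_of_cover fun x => ?_
    obtain ⟨V, hx, hV⟩ := h x
    have h2 := hV.2
    rw [RelAmp.locHasFiniteRelTorDim_iff] at h2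
    obtain ⟨V', a, b, hx', h1⟩ := h2 ⟨x, hx⟩
    refine ⟨V', V'.ι ≫ V.ι, inferInstance, a, b, ⟨⟨⟨x, hx⟩, hx'⟩, rfl⟩, ?_⟩
    rw [Category.assoc]
    exact Groth.Agent.Dual.H351.PairRestrict.hasRelFlatAmplitudeIn_of_iso
      ((Dcoh.LocalD.restrictCompEq (f := V'.ι) (g := V.ι) rfl).app K) h1

end RelPerf

section

variable {X S : Scheme.{u}} {f : X ⟶ S} [IsSeparated f]

attribute [local instance] Dcoh.DerPull.hasLpull

/-- The arrow over `V'` induced by the arrow over `V ⊇ V'`. -/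
noncomputable def resXi {V' V : X.Opens} (hV : V' ≤ V) {K : DCoh.D X}
    (ξ : (Dual3.pushD (pullback.diagonal f)).obj (TV V (OX X)) ⟶
      (DCoh.Lpull (pullback.fst f f)).obj K) :
    (Dual3.pushD (pullback.diagonal f)).obj (TV V' (OX X)) ⟶ (DCoh.Lpull (pullback.fst f f)).obj K :=
  (Dual3.pushD (pullback.diagonal f)).map (kap hV (OX X)) ≫ ξ

lemma resXi_resXi {V'' V' V : X.Opens} (hV' : V'' ≤ V') (hV : V' ≤ V) {K : DCoh.D X}
    (ξ : (Dual3.pushD (pullback.diagonal f)).obj (TV V (OX X)) ⟶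
      (DCoh.Lpull (pullback.fst f f)).obj K) :
    resXi hV' (resXi hV ξ) = resXi (hV'.trans hV) ξ := by
  rw [resXi, resXi, resXi, ← Functor.map_comp_assoc, kap_comp]

lemma resXi_id {V : X.Opens} {K : DCoh.D X}
    (ξ : (Dual3.pushD (pullback.diagonal f)).obj (TV V (OX X)) ⟶
      (DCoh.Lpull (pullback.fst f f)).obj K) :
    resXi (le_refl V) ξ = ξ := by
  rw [resXi, kap_id, CategoryTheory.Functor.map_id, Category.id_comp]

lemma resXi_comp {V' V : X.Opens} (hV : V' ≤ V) {K L : DCoh.D X}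
    (ξ : (Dual3.pushD (pullback.diagonal f)).obj (TV V (OX X)) ⟶
      (DCoh.Lpull (pullback.fst f f)).obj K) (φ : K ⟶ L) :
    resXi hV (ξ ≫ (DCoh.Lpull (pullback.fst f f)).map φ) =
      resXi hV ξ ≫ (DCoh.Lpull (pullback.fst f f)).map φ := by
  simp [resXi]

lemma isUniOn_resXi {V' V : X.Opens} (hV : V' ≤ V) {K : DCoh.D X}
    {ξ : (Dual3.pushD (pullback.diagonal f)).obj (TV V (OX X)) ⟶
      (DCoh.Lpull (pullback.fst f f)).obj K}
    (h : IsUniOn V.ι (Dual3.pushD (pullback.diagonal f)) ξ) :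
    IsUniOn V'.ι (Dual3.pushD (pullback.diagonal f)) (resXi hV ξ) :=
  (IsUniOn.precomp_iff _ (isIso_kap hV (OX X))).2 (h.of_range_subset (by simpa using hV))

lemma pair_res {V' V : X.Opens} (hV : V' ≤ V) (d : Dat f V) :
    Dual3.IsRelDualizingPair (V'.ι ≫ f) ((restrictD V'.ι).obj d.K) (loc' f V' (resXi hV d.ξ)) := by
  rw [pair_iff]
  exact ⟨RelPerf.restrict_le hV d.relPerf,
    (isUniOn_iff_loc' f V' _).1 (isUniOn_resXi hV d.uni)⟩

/-- The transition maps exist and are unique. -/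
theorem exists_trans {V' V : X.Opens} (hV : V' ≤ V) (hU : UProp (V'.ι ≫ f)) (d' : Dat f V')
    (d : Dat f V) :
    ∃ a : d'.K ⟶ d.K, (IsIso ((restrictD V'.ι).map a) ∧
      d'.ξ ≫ (DCoh.Lpull (pullback.fst f f)).map a = resXi hV d.ξ) ∧
      ∀ b : d'.K ⟶ d.K, IsIso ((restrictD V'.ι).map b) →
        d'.ξ ≫ (DCoh.Lpull (pullback.fst f f)).map b = resXi hV d.ξ → b = a := by
  obtain ⟨α, hα, hα'⟩ := hU _ _ _ _ d'.pair (pair_res hV d)
  obtain ⟨a, ha⟩ := (bijective_restrictD_map (j := V'.ι) d'.K d.K d'.supp).2 α.hom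
  dsimp only at ha hα hα'
  refine ⟨a, ⟨by rw [ha]; infer_instance, ?_⟩, ?_⟩
  · apply (bijective_loc' f V' d.K).1
    rw [loc'_comp, ha, hα]
  · intro b hb hb'
    have h1 := hα' (asIso ((restrictD V'.ι).map b)) (by
      rw [asIso_hom, ← loc'_comp, hb'])
    apply (bijective_restrictD_map (j := V'.ι) d'.K d.K d'.supp).1
    dsimp only
    rw [ha, ← h1, asIso_hom]

end

end Groth.Agent.Dual.H350.Trans
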