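import Mathlib.CategoryTheory.Shift.CommShift
import Mathlib.Algebra.Group.Int.Defs
import Mathlib.CategoryTheory.Adjunction.Basic

/-!
# Universal arrows from a functor to an object (abstract part)

`IsUni G ε` for `ε : G.obj N ⟶ F`: every morphism `G.obj M ⟶ F` factors uniquely as `G.map φ ≫ ε`.
-/

set_option autoImplicit false

universe v₁ v₂ v₃ v₄ u₁ u₂ u₃ u₄

open CategoryTheory

namespace Groth.Agent.Dual.H350.Uni

variable {C : Type u₁} [Category.{v₁} C] {D : Type u₂} [Category.{v₂} D]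

/-- `ε : G.obj N ⟶ F` is universal: `φ ↦ G.map φ ≫ ε` is a bijection `(M ⟶ N) → (G.obj M ⟶ F)`. -/
def IsUni (G : C ⥤ D) {N : C} {F : D} (ε : G.obj N ⟶ F) : Prop :=
  ∀ M : C, Function.Bijective (fun φ : M ⟶ N => G.map φ ≫ ε)

variable {G : C ⥤ D} {N N' : C} {F F' : D} {ε : G.obj N ⟶ F} {ε' : G.obj N' ⟶ F}

lemma IsUni.hom_ext (h : IsUni G ε) {M : C} {φ ψ : M ⟶ N} (e : G.map φ ≫ ε = G.map ψ ≫ ε) : φ = ψ :=
  (h M).1 e

lemma IsUni.exists_lift (h : IsUni G ε) {M : C} (g : G.obj M ⟶ F) : ∃ φ : M ⟶ N, G.map φ ≫ ε = g :=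
  (h M).2 g

/-- The lift of a morphism through a universal arrow. -/
noncomputable def IsUni.lift (h : IsUni G ε) {M : C} (g : G.obj M ⟶ F) : M ⟶ N :=
  (h.exists_lift g).choose

@[reassoc (attr := simp)]
lemma IsUni.map_lift (h : IsUni G ε) {M : C} (g : G.obj M ⟶ F) : G.map (h.lift g) ≫ ε = g :=
  (h.exists_lift g).choose_spec

lemma IsUni.lift_unique (h : IsUni G ε) {M : C} (g : G.obj M ⟶ F) (φ : M ⟶ N)
    (e : G.map φ ≫ ε = g) : φ = h.lift g :=
  h.hom_ext (by rw [e, h.map_lift])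

/-- Two universal arrows are canonically isomorphic. -/
noncomputable def IsUni.iso (h : IsUni G ε) (h' : IsUni G ε') : N ≅ N' where
  hom := h'.lift ε
  inv := h.lift ε'
  hom_inv_id := h.hom_ext (by rw [G.map_comp, Category.assoc, h.map_lift, h'.map_lift, G.map_id,
    Category.id_comp])
  inv_hom_id := h'.hom_ext (by rw [G.map_comp, Category.assoc, h'.map_lift, h.map_lift, G.map_id,
    Category.id_comp])

@[reassoc (attr := simp)]
lemma IsUni.map_iso_hom (h : IsUni G ε) (h' : IsUni G ε') : G.map (h.iso h').hom ≫ ε' = ε :=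
  h'.map_lift ε

@[reassoc (attr := simp)]
lemma IsUni.map_iso_inv (h : IsUni G ε) (h' : IsUni G ε') : G.map (h.iso h').inv ≫ ε = ε' :=
  h.map_lift ε'

/-- A morphism compatible with two universal arrows is an isomorphism. -/
lemma IsUni.isIso (h : IsUni G ε) (h' : IsUni G ε') (φ : N ⟶ N') (e : G.map φ ≫ ε' = ε) :
    IsIso φ := by
  have : φ = (h.iso h').hom := h'.hom_ext (by rw [e, h.map_iso_hom h'])
  rw [this]
  infer_instance

/-- Precomposing a universal arrow with an isomorphism. -/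
lemma IsUni.of_iso_left (h : IsUni G ε) (e : N' ≅ N) : IsUni G (G.map e.hom ≫ ε) := fun M => by
  have : (fun φ : M ⟶ N' => G.map φ ≫ G.map e.hom ≫ ε) =
      (fun φ : M ⟶ N => G.map φ ≫ ε) ∘ (fun φ => φ ≫ e.hom) := by
    funext φ
    simp
  rw [this]
  refine (h M).comp ⟨fun a b hab => ?_, fun b => ⟨b ≫ e.inv, by simp⟩⟩
  simpa using hab

/-- A morphism into a universal arrow is an isomorphism iff the composite is universal. -/
lemma IsUni.isIso_iff (h : IsUni G ε) (φ : N' ⟶ N) : IsIso φ ↔ IsUni G (G.map φ ≫ ε) := by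
  constructor
  · intro hφ
    exact h.of_iso_left (asIso φ)
  · intro h'
    exact h'.isIso h φ rfl

/-- Postcomposing a universal arrow with an isomorphism. -/
lemma IsUni.of_iso_right (h : IsUni G ε) (e : F ≅ F') : IsUni G (ε ≫ e.hom) := fun M => by
  have : (fun φ : M ⟶ N => G.map φ ≫ ε ≫ e.hom) =
      (fun g : G.obj M ⟶ F => g ≫ e.hom) ∘ (fun φ : M ⟶ N => G.map φ ≫ ε) := by
    funext φ
    simp
  rw [this]
  refine Function.Bijective.comp ⟨fun a b hab => ?_, fun b => ⟨b ≫ e.inv, by simp⟩⟩ (h M)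
  simpa using hab

lemma isUni_iff_of_iso_right (e : F ≅ F') : IsUni G ε ↔ IsUni G (ε ≫ e.hom) := by
  constructor
  · intro h
    exact h.of_iso_right e
  · intro h
    have := h.of_iso_right e.symm
    simpa using this

lemma isUni_iff_of_iso_left (e : N' ≅ N) : IsUni G ε ↔ IsUni G (G.map e.hom ≫ ε) := by
  constructor
  · intro h
    exact h.of_iso_left e
  · intro h
    have := h.of_iso_left e.symm
    simpa [← G.map_comp_assoc] using this

/-- Universality is invariant under isomorphism of functors. -/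
lemma IsUni.of_natIso {G' : C ⥤ D} (h : IsUni G ε) (θ : G' ≅ G) :
    IsUni G' (θ.hom.app N ≫ ε) := fun M => by
  have : (fun φ : M ⟶ N => G'.map φ ≫ θ.hom.app N ≫ ε) =
      (fun g : G.obj M ⟶ F => θ.hom.app M ≫ g) ∘ (fun φ : M ⟶ N => G.map φ ≫ ε) := by
    funext φ
    simp
  rw [this]
  refine Function.Bijective.comp ⟨fun a b hab => ?_, fun b => ⟨θ.inv.app M ≫ b, by simp⟩⟩ (h M)
  simpa using hab

lemma isUni_iff_of_natIso {G' : C ⥤ D} (θ : G' ≅ G) (ε : G.obj N ⟶ F) :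
    IsUni G' (θ.hom.app N ≫ ε) ↔ IsUni G ε := by
  constructor
  · intro h
    have := h.of_natIso θ.symm
    simpa using this
  · intro h
    exact h.of_natIso θ

/-- It suffices to test the bijectivity up to isomorphism in the test object. -/
lemma bijective_of_iso {M M' : C} (e : M' ≅ M)
    (h : Function.Bijective (fun φ : M ⟶ N => G.map φ ≫ ε)) :
      Function.Bijective (fun φ : M' ⟶ N => G.map φ ≫ ε) := by
  have : (fun φ : M' ⟶ N => G.map φ ≫ ε) =
      (fun g : G.obj M ⟶ F => G.map e.hom ≫ g) ∘ (fun φ : M ⟶ N => G.map φ ≫ ε) ∘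
        (fun φ : M' ⟶ N => e.inv ≫ φ) := by
    funext φ
    change _ = G.map e.hom ≫ G.map (e.inv ≫ φ) ≫ ε
    rw [← G.map_comp_assoc, e.hom_inv_id_assoc]
  rw [this]
  refine Function.Bijective.comp ⟨fun a b hab => ?_, fun b => ⟨G.map e.inv ≫ b, ?_⟩⟩
    (h.comp ⟨fun a b hab => ?_, fun b => ⟨e.hom ≫ b, by simp⟩⟩)
  · exact (cancel_epi (G.map e.hom)).1 hab
  · dsimp
    rw [← G.map_comp_assoc, e.hom_inv_id, G.map_id, Category.id_comp]
  · exact (cancel_epi e.inv).1 hab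

section Adj

variable {R : D ⥤ C} (adj : G ⊣ R)

/-- The counit of an adjunction is universal. -/
lemma isUni_counit (F : D) : IsUni G (adj.counit.app F) := fun M => by
  have : (fun φ : M ⟶ R.obj F => G.map φ ≫ adj.counit.app F) = (adj.homEquiv M F).symm := by
    funext φ
    rw [adj.homEquiv_counit]
  rw [this]
  exact (adj.homEquiv M F).symm.bijective

/-- `ε` is universal iff its adjoint is an isomorphism. -/
lemma isUni_iff_isIso_homEquiv (ε : G.obj N ⟶ F) : IsUni G ε ↔ IsIso (adj.homEquiv N F ε) := by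
  rw [(isUni_counit adj F).isIso_iff]
  have : G.map (adj.homEquiv N F ε) ≫ adj.counit.app F = ε :=
    (adj.homEquiv_counit N F _).symm.trans (Equiv.symm_apply_apply _ _)
  rw [this]

end Adj

section Comp

variable {E : Type u₃} [Category.{v₃} E] {G₂ : D ⥤ E} {F₂ : E} {ε₂ : G₂.obj F ⟶ F₂}

/-- Universal arrows compose. -/
lemma IsUni.comp (h₂ : IsUni G₂ ε₂) (h : IsUni G ε) :
    IsUni (G ⋙ G₂) (N := N) (F := F₂) (G₂.map ε ≫ ε₂) := fun M => by
  have : (fun φ : M ⟶ N => (G ⋙ G₂).map φ ≫ G₂.map ε ≫ ε₂) =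
      (fun g : G.obj M ⟶ F => G₂.map g ≫ ε₂) ∘ (fun φ : M ⟶ N => G.map φ ≫ ε) := by
    funext φ
    simp
  rw [this]
  exact (h₂ _).comp (h M)

/-- Cancellation of universal arrows. -/
lemma IsUni.of_comp (h₂ : IsUni G₂ ε₂)
    (h : IsUni (G ⋙ G₂) (N := N) (F := F₂) (G₂.map ε ≫ ε₂)) : IsUni G ε := fun M => by
  have : (fun φ : M ⟶ N => (G ⋙ G₂).map φ ≫ G₂.map ε ≫ ε₂) =
      (fun g : G.obj M ⟶ F => G₂.map g ≫ ε₂) ∘ (fun φ : M ⟶ N => G.map φ ≫ ε) := by
    funext φ
    simp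
  have h' := h M
  rw [this] at h'
  exact ((h₂ _).of_comp_iff' _).1 h'

end Comp

section Square

variable {C' : Type u₃} [Category.{v₃} C'] {D' : Type u₄} [Category.{v₄} D']
  {G' : C' ⥤ D'} {r : C ⥤ C'} {r₂ : D ⥤ D'} (α : G ⋙ r₂ ≅ r ⋙ G')

/-- Restriction of a universal arrow along a square of functors. -/
lemma IsUni.square (h : IsUni G ε) (M' : C') (M : C) (e : r.obj M ≅ M')
    (hr : Function.Bijective (fun φ : M ⟶ N => r.map φ))
    (hr₂ : Function.Bijective (fun g : G.obj M ⟶ F => r₂.map g)) :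
    Function.Bijective (fun φ : M' ⟶ r.obj N => G'.map φ ≫ α.inv.app N ≫ r₂.map ε) := by
  refine bijective_of_iso (G := G') (ε := α.inv.app N ≫ r₂.map ε) e.symm ?_
  have key : (fun φ : r.obj M ⟶ r.obj N => G'.map φ ≫ α.inv.app N ≫ r₂.map ε) ∘
      (fun φ : M ⟶ N => r.map φ) =
      (fun g : r₂.obj (G.obj M) ⟶ r₂.obj F => α.inv.app M ≫ g) ∘ (fun g : G.obj M ⟶ F => r₂.map g) ∘
        (fun φ : M ⟶ N => G.map φ ≫ ε) := by
    funext φ
    have := α.inv.naturality φ
    dsimp at this ⊢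
    rw [reassoc_of% this, ← r₂.map_comp]
  refine (Function.Bijective.of_comp_iff _ hr).1 ?_
  rw [key]
  refine Function.Bijective.comp ⟨fun a b hab => ?_, fun b => ⟨α.hom.app M ≫ b, by simp⟩⟩
    (hr₂.comp (h M))
  simpa using hab

end Square

section Shift

variable [HasShift C ℤ] [HasShift D ℤ] [G.CommShift ℤ]

/-- Universal arrows are stable under shift. -/
lemma IsUni.shift (h : IsUni G ε) (j : ℤ) :
    IsUni G ((G.commShiftIso j).hom.app N ≫ (shiftFunctor D j).map ε) := fun M => by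
  refine bijective_of_iso (G := G) (ε := (G.commShiftIso j).hom.app N ≫ (shiftFunctor D j).map ε)
    ((shiftFunctorCompIsoId C (-j) j (neg_add_cancel j)).app M).symm ?_
  have hs : Function.Bijective (fun φ : M⟦-j⟧ ⟶ N => (shiftFunctor C j).map φ) :=
    ⟨(shiftFunctor C j).map_injective, (shiftFunctor C j).map_surjective⟩
  have hs' : Function.Bijective (fun φ : G.obj (M⟦-j⟧) ⟶ F => (shiftFunctor D j).map φ) :=
    ⟨(shiftFunctor D j).map_injective, (shiftFunctor D j).map_surjective⟩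
  refine (Function.Bijective.of_comp_iff _ hs).1 ?_
  have key : (fun φ : (M⟦-j⟧)⟦j⟧ ⟶ N⟦j⟧ =>
      G.map φ ≫ (G.commShiftIso j).hom.app N ≫ (shiftFunctor D j).map ε) ∘
      (fun φ : M⟦-j⟧ ⟶ N => (shiftFunctor C j).map φ) =
      (fun g : (G.obj (M⟦-j⟧))⟦j⟧ ⟶ F⟦j⟧ => (G.commShiftIso j).hom.app _ ≫ g) ∘
        (fun φ : G.obj (M⟦-j⟧) ⟶ F => (shiftFunctor D j).map φ) ∘
          (fun φ : M⟦-j⟧ ⟶ N => G.map φ ≫ ε) := by
    funext φ
    have := (G.commShiftIso j).hom.naturality φ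
    dsimp at this ⊢
    rw [reassoc_of% this, ← Functor.map_comp]
  change Function.Bijective ((fun φ : (M⟦-j⟧)⟦j⟧ ⟶ N⟦j⟧ =>
      G.map φ ≫ (G.commShiftIso j).hom.app N ≫ (shiftFunctor D j).map ε) ∘
      (fun φ : M⟦-j⟧ ⟶ N => (shiftFunctor C j).map φ))
  rw [key]
  refine Function.Bijective.comp ⟨fun a b hab => ?_,
    fun b => ⟨(G.commShiftIso j).inv.app _ ≫ b, by simp⟩⟩ (hs'.comp (h _))
  simpa using hab

/-- Universality follows from the shifted universality for one shift (used for `j = 0`). -/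
lemma IsUni.of_shift (j : ℤ)
    (h : IsUni G ((G.commShiftIso j).hom.app N ≫ (shiftFunctor D j).map ε)) : IsUni G ε := fun M => by
  have hs : Function.Bijective (fun φ : M ⟶ N => (shiftFunctor C j).map φ) :=
    ⟨(shiftFunctor C j).map_injective, (shiftFunctor C j).map_surjective⟩
  have hs' : Function.Bijective (fun φ : G.obj M ⟶ F => (shiftFunctor D j).map φ) :=
    ⟨(shiftFunctor D j).map_injective, (shiftFunctor D j).map_surjective⟩
  have key : (fun φ : M⟦j⟧ ⟶ N⟦j⟧ =>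
      G.map φ ≫ (G.commShiftIso j).hom.app N ≫ (shiftFunctor D j).map ε) ∘
      (fun φ : M ⟶ N => (shiftFunctor C j).map φ) =
      ((fun g : (G.obj M)⟦j⟧ ⟶ F⟦j⟧ => (G.commShiftIso j).hom.app _ ≫ g) ∘
        (fun φ : G.obj M ⟶ F => (shiftFunctor D j).map φ)) ∘
          (fun φ : M ⟶ N => G.map φ ≫ ε) := by
    funext φ
    have := (G.commShiftIso j).hom.naturality φ
    dsimp at this ⊢
    rw [reassoc_of% this, ← Functor.map_comp]
  have h1 := (h (M⟦j⟧)).comp hs
  rw [key] at h1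
  have h2 : Function.Bijective ((fun g : (G.obj M)⟦j⟧ ⟶ F⟦j⟧ => (G.commShiftIso j).hom.app _ ≫ g) ∘
        (fun φ : G.obj M ⟶ F => (shiftFunctor D j).map φ)) := by
    refine Function.Bijective.comp ⟨fun a b hab => ?_,
      fun b => ⟨(G.commShiftIso j).inv.app _ ≫ b, by simp⟩⟩ hs'
    simpa using hab
  exact (h2.of_comp_iff' _).1 h1

end Shift

end Groth.Agent.Dual.H350.Uni
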