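import Groth.Agent.Dual.H350.Loc

/-!
# Arrows `Δ_* N ⟶ F` which are universal for objects supported in an open
-/

set_option autoImplicit false
set_option linter.unusedSectionVars false

universe u

open CategoryTheory CategoryTheory.Limits AlgebraicGeometry

attribute [local instance] HasDerivedCategory.standard

namespace Groth.Agent.Dual.H350.UniOn

open Groth.Agent.PerfA Groth.Agent.PerfA.Restrict Groth.Agent.PerfC.Supp Groth.Agent.PerfC.ExtZeroD
open Groth.Agent.PerfC Groth.Agent.Dual.H350.SuppHom Groth.Agent.Dual.H350.UnivLoc Groth.Agent.Dual.H350.Uni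
open Groth.Agent.Dual.H350.Loc

section Def

variable {X W X' : Scheme.{u}} (j : X' ⟶ X) [IsOpenImmersion j] (G : DCoh.D X ⥤ DCoh.D W)

/-- `ξ : G N ⟶ F` is universal for test objects supported in `X'`. -/
def IsUniOn {N : DCoh.D X} {F : DCoh.D W} (ξ : G.obj N ⟶ F) : Prop :=
  ∀ M : DCoh.D X, SuppIn j M → Function.Bijective (fun φ : M ⟶ N => G.map φ ≫ ξ)

variable {j G} {N : DCoh.D X} {F : DCoh.D W} {ξ : G.obj N ⟶ F}

lemma IsUniOn.of_isUni (h : IsUni G ξ) : IsUniOn j G ξ := fun M _ => h M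

lemma IsUniOn.of_range_subset {X'' : Scheme.{u}} {j' : X'' ⟶ X} [IsOpenImmersion j']
    (h : IsUniOn j G ξ) (hj : Set.range j' ⊆ Set.range j) : IsUniOn j' G ξ :=
  fun M hM => h M (hM.mono j' hj)

lemma IsUniOn.precomp_iff {N' : DCoh.D X} (κ : N' ⟶ N) (hκ : IsIso ((restrictD j).map κ)) :
    IsUniOn j G (G.map κ ≫ ξ) ↔ IsUniOn j G ξ := by
  refine forall₂_congr fun M hM => ?_
  have : (fun φ : M ⟶ N' => G.map φ ≫ G.map κ ≫ ξ) =
      (fun φ : M ⟶ N => G.map φ ≫ ξ) ∘ (fun φ : M ⟶ N' => φ ≫ κ) := by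
    funext φ
    simp
  rw [this]
  exact Function.Bijective.of_comp_iff _ (hM.bijective_comp κ hκ)

lemma isUniOn_iff_homEquiv {R : DCoh.D W ⥤ DCoh.D X} (adj : G ⊣ R) :
    IsUniOn j G ξ ↔ IsIso ((restrictD j).map (adj.homEquiv N F ξ)) := by
  have key : ∀ M : DCoh.D X, Function.Bijective (fun φ : M ⟶ N => G.map φ ≫ ξ) ↔
      Function.Bijective (fun φ : M ⟶ N => φ ≫ adj.homEquiv N F ξ) := by
    intro M
    have : (fun φ : M ⟶ N => φ ≫ adj.homEquiv N F ξ) =
        (adj.homEquiv M F) ∘ (fun φ : M ⟶ N => G.map φ ≫ ξ) := by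
      funext φ
      simp [Adjunction.homEquiv_naturality_left]
    rw [this]
    exact ((adj.homEquiv M F).bijective.of_comp_iff' _).symm
  constructor
  · intro h
    exact isIso_restrictD_of_bijective _ fun A => (key _).1 (h _ (suppIn_shriekD j A))
  · intro h M hM
    exact (key M).2 (hM.bijective_comp _ h)

end Def

section Sq

variable {X W X' W' : Scheme.{u}}
  {Δ : X ⟶ W} {p : W ⟶ X} {Δ' : X' ⟶ W'} {p' : W' ⟶ X'} {j : X' ⟶ X} {w : W' ⟶ W}
  [IsOpenImmersion j] [IsOpenImmersion w] [DCoh.HasLpull p] [DCoh.HasLpull p']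
  [PreservesFiniteLimits (Scheme.Modules.pushforward Δ)]
  [PreservesFiniteColimits (Scheme.Modules.pushforward Δ)]
  [PreservesFiniteLimits (Scheme.Modules.pushforward Δ')]
  [PreservesFiniteColimits (Scheme.Modules.pushforward Δ')]
  [IsClosedImmersion Δ]
  (h : Sq Δ p Δ' p' j w)
  {N K : DCoh.D X}

include h in
lemma IsUniOn.postcomp_iff {ξ : (Dual3.pushD Δ).obj N ⟶ (DCoh.Lpull p).obj K} {L : DCoh.D X}
    (φ : K ⟶ L) (hφ : IsIso ((restrictD j).map φ)) :
    IsUniOn j (Dual3.pushD Δ) (ξ ≫ (DCoh.Lpull p).map φ) ↔ IsUniOn j (Dual3.pushD Δ) ξ := by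
  refine forall₂_congr fun M hM => ?_
  have : (fun φ' : M ⟶ N => (Dual3.pushD Δ).map φ' ≫ ξ ≫ (DCoh.Lpull p).map φ) =
      (fun g : (Dual3.pushD Δ).obj M ⟶ (DCoh.Lpull p).obj K => g ≫ (DCoh.Lpull p).map φ) ∘
        (fun φ' : M ⟶ N => (Dual3.pushD Δ).map φ' ≫ ξ) := by
    funext φ'
    simp
  rw [this]
  exact Function.Bijective.of_comp_iff'
    ((h.suppIn_push hM).bijective_comp _ (h.isIso_restrict_Lpull φ hφ)) _

/-- Universality over an open is universality of the localized arrow. -/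
theorem isUniOn_iff (ξ : (Dual3.pushD Δ).obj N ⟶ (DCoh.Lpull p).obj K) :
    IsUniOn j (Dual3.pushD Δ) ξ ↔ IsUni (Dual3.pushD Δ') (h.loc ξ) := by
  have key : ∀ M : DCoh.D X, SuppIn j M →
      (Function.Bijective (fun φ : M ⟶ N => (Dual3.pushD Δ).map φ ≫ ξ) ↔
        Function.Bijective (fun φ : (restrictD j).obj M ⟶ (restrictD j).obj N =>
          (Dual3.pushD Δ').map φ ≫ h.loc ξ)) := by
    intro M hM
    have e : (fun φ : (restrictD j).obj M ⟶ (restrictD j).obj N =>
          (Dual3.pushD Δ').map φ ≫ h.loc ξ) ∘ (fun φ : M ⟶ N => (restrictD j).map φ) =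
        (h.loc (N := M) (K := K)) ∘ (fun φ : M ⟶ N => (Dual3.pushD Δ).map φ ≫ ξ) := by
      funext φ
      exact (h.loc_map_comp φ ξ).symm
    rw [← Function.Bijective.of_comp_iff _ (bijective_restrictD_map (j := j) M N hM), e]
    exact (Function.Bijective.of_comp_iff' (h.bijective_loc hM K) _).symm
  constructor
  · intro hξ M'
    exact bijective_of_iso (unitIso j M') ((key _ (suppIn_shriekD j M')).1
      (hξ _ (suppIn_shriekD j M')))
  · intro hξ M hM
    exact (key M hM).2 (hξ _)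

end Sq

end Groth.Agent.Dual.H350.UniOn
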