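import Groth.Prelude.Def_Dual3
import Groth.Agent.Dual.H350.Uni
import Groth.Agent.PerfC.ExtZeroD
import Groth.Agent.Dcoh.PushRestrict
import Groth.Agent.CohqB.DevSimple
import Groth.Agent.CohqB.DevSupport

/-!
# Universal arrows along a closed immersion restrict to opens of the target
-/

set_option autoImplicit false

universe u

open CategoryTheory CategoryTheory.Limits AlgebraicGeometry

attribute [local instance] HasDerivedCategory.standard

namespace Groth.Agent.Dual.H350.UnivLoc

open Groth.Agent.PerfA Groth.Agent.PerfA.Restrict Groth.Agent.PerfC.Supp Groth.Agent.PerfC.ExtZeroD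
open Groth.Agent.Dual.H350.Uni Groth.Agent.Dcoh.PushRestrict

variable {Z X : Scheme.{u}} (i : Z ⟶ X)
  [PreservesFiniteLimits (Scheme.Modules.pushforward i)]
  [PreservesFiniteColimits (Scheme.Modules.pushforward i)]

/-- Cohomology sheaves of `i_* K` for exact `i_*`. -/
noncomputable def HDpush (K : DCoh.D Z) (n : ℤ) :
    DCoh.HD ((Dual3.pushD i).obj K) n ≅ (Scheme.Modules.pushforward i).obj (DCoh.HD K n) :=
  (ExactD.mapHomology (Scheme.Modules.pushforward i) n).app K

lemma supp_pushD [IsClosedImmersion i] (K : DCoh.D Z) (n : ℤ) :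
    supp ((Dual3.pushD i).obj K) n = i '' supp K n := by
  rw [← CohqB.DevSimple.support_push i (DCoh.HD K n)]
  exact CohqB.DevSupport.support_congr (HDpush i K n)

section Square

variable {Z' V : Scheme.{u}} {i' : Z' ⟶ V} {k' : Z' ⟶ Z} {k : V ⟶ X}
  [IsOpenImmersion k'] [IsOpenImmersion k]
  [PreservesFiniteLimits (Scheme.Modules.pushforward i')]
  [PreservesFiniteColimits (Scheme.Modules.pushforward i')]

/-- Open base change for `i_*` on derived categories. -/
noncomputable def pushSq (hp : IsPullback k' i' i k) :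
    Dual3.pushD i ⋙ restrictD k ≅ restrictD k' ⋙ Dual3.pushD i' :=
  ExactD.mapDComp (pushRestrictIsoOfIsPullback i i' k' k hp) ≪≫
    (ExactD.mapDComp (Iso.refl _)).symm

end Square

end Groth.Agent.Dual.H350.UnivLoc
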